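import Mathlib
import Cfsg.Agent.Nodes.LeviDec
import Cfsg.Agent.H211.Dl.Perm

/-!
# The permutation characters of the parabolic subgroups of a Weyl group (for S4769)

* `coord` : `W_J` changes only the coordinates in `J`;
* `card_le` : if a product of the simple reflections of `K` is conjugate to an element of `W_J`, then `|K| ≤ |J|`;
* `fixW`, `indep` : the functions `∑_{|J| = j} 1_{W_J}^W`, `0 ≤ j ≤ |I|`, are linearly independent.
-/

set_option autoImplicit false
set_option linter.unusedSectionVars false
set_option linter.style.haveILetI false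

namespace Cfsg.Agent.H211.Dl

open CoxeterSystem Cfsg.Agent.ChevalleyStructure.CoxeterGeom Cfsg.Agent.Tits.Roots Cfsg.Agent.Tits.Core
  Cfsg.Agent.Tits.Exchange Cfsg.Agent.Nodes.Reps Cfsg.Agent.Nodes.BNOf Cfsg.Agent.Nodes.StabComb
  Cfsg.Agent.Nodes.Bruhat Cfsg.Agent.Nodes.OppDec Cfsg.Agent.Nodes.LeviDec

variable {I W : Type*} [Fintype I] [DecidableEq I] [Group W] {M : CoxeterMatrix I}
  {cs : CoxeterSystem M W} {A : I → I → ℤ} {h : IsCartan M A}

/-- `W_J` changes only the coordinates in `J`. -/
theorem coord {J : Set I} {w : W} (hw : w ∈ WJ cs J) (x : I → ℤ) {k : I} (hk : k ∉ J) :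
    rep cs h w x k = x k := by
  obtain ⟨ω, hω, rfl⟩ := exists_word_of_mem_WJ cs hw
  clear hw
  induction ω with
  | nil => rw [wordProd_nil, map_one, Module.End.one_apply]
  | cons i ω ih =>
    rw [wordProd_cons, rep_mul_apply, rep_simple_apply cs h i _ k
      (by rintro rfl; exact hk (hω _ (by simp)))]
    exact ih fun j hj => hω j (by simp [hj])

include h in
theorem mem_of_simple_mem {J : Set I} {k : I} (hk : cs.simple k ∈ WJ cs J) : k ∈ J := by
  by_contra hcon
  have h1 := coord (h := h) hk (sr k) hcon
  rw [rep_simple_sr, Pi.neg_apply, sr_self] at h1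
  exact absurd h1 (by decide)

/-- The product of the simple reflections of a list. -/
theorem wordProd_mem {J : Set I} {ω : List I} (hω : ∀ i ∈ ω, i ∈ J) : cs.wordProd ω ∈ WJ cs J := by
  induction ω with
  | nil => rw [wordProd_nil]; exact one_mem _
  | cons i ω ih =>
    rw [wordProd_cons]
    exact mul_mem (simple_mem_WJ cs (hω i (by simp))) (ih fun j hj => hω j (by simp [hj]))

/-- A vector fixed by the product of the reflections of a list without repetitions is fixed by each of them. -/
theorem pairing_eq_zero {x : I → ℤ} : ∀ {ω : List I}, ω.Nodup → rep cs h (cs.wordProd ω) x = x →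
    ∀ k ∈ ω, pairing A k x = 0
  | [], _, _ => by simp
  | i :: ω, hnd, hx => by
    rw [List.nodup_cons] at hnd
    have h1 : rep cs h (cs.wordProd ω) x = rep cs h (cs.simple i) x := by
      rw [wordProd_cons, rep_mul_apply] at hx
      have h2 := congrArg (rep cs h (cs.simple i)) hx
      rw [← rep_mul_apply, simple_mul_simple_self, map_one, Module.End.one_apply] at h2
      exact h2
    have h2 : pairing A i x = 0 := by
      have h3 := congrFun h1 i
      rw [coord (h := h) (wordProd_mem (cs := cs) (J := {j | j ∈ ω}) (fun j hj => hj)) x hnd.1,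
        rep_simple_apply_self] at h3
      omega
    have h3 : rep cs h (cs.wordProd ω) x = x := by
      rw [h1, rep_simple_eq, h2, zero_smul, sub_zero]
    intro k hk
    rcases List.mem_cons.1 hk with rfl | hk
    · exact h2
    · exact pairing_eq_zero hnd.2 h3 k hk

/-- A vector in the span of the simple roots of `K` orthogonal to all of them is zero. -/
theorem eq_zero_of_pairing [Finite W] (cs : CoxeterSystem M W) (h : IsCartan M A) {K : Set I} {x : I → ℤ}
    (hx : ∀ k, k ∉ K → x k = 0) (h0 : ∀ k ∈ K, pairing A k x = 0) : x = 0 := by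
  haveI : Fintype W := Fintype.ofFinite W
  by_contra hne
  have h1 := form_pos cs h hne
  rw [form_eq_sum] at h1
  refine h1.ne' (Finset.sum_eq_zero fun k _ => ?_)
  by_cases hk : k ∈ K
  · have h2 := two_form cs h k x
    rw [h0 k hk, zero_mul] at h2
    have h3 : form cs h x (sr k) = 0 := by omega
    rw [h3, mul_zero]
  · rw [hx k hk, zero_mul]

/-- Extension by zero. -/
noncomputable def ext0 (K : Finset I) : (K → ℤ) →ₗ[ℤ] (I → ℤ) where
  toFun y := fun k => if hk : k ∈ K then y ⟨k, hk⟩ else 0
  map_add' y z := by
    funext k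
    rw [Pi.add_apply]
    split_ifs <;> simp
  map_smul' c y := by
    funext k
    rw [Pi.smul_apply]
    split_ifs <;> simp

theorem ext0_apply_mem {K : Finset I} (y : K → ℤ) {k : I} (hk : k ∈ K) : ext0 K y k = y ⟨k, hk⟩ := dif_pos hk

theorem ext0_apply_notMem {K : Finset I} (y : K → ℤ) {k : I} (hk : k ∉ K) : ext0 K y k = 0 := dif_neg hk

include h in
/-- **The rank.** If the product of the simple reflections of `K` is conjugate to an element of `W_J` then
`|K| ≤ |J|`. -/
theorem card_le [Finite W] {J K : Finset I} {v : W} (hv : v⁻¹ * cs.wordProd K.toList * v ∈ WJ cs (J : Set I)) :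
    K.card ≤ J.card := by
  let f : (K → ℤ) →ₗ[ℤ] (J → ℤ) :=
    (LinearMap.funLeft ℤ ℤ (fun j : J => (j : I))).comp
      ((rep cs h v⁻¹ : (I → ℤ) →ₗ[ℤ] (I → ℤ)).comp
        ((rep cs h (cs.wordProd K.toList) - LinearMap.id : (I → ℤ) →ₗ[ℤ] (I → ℤ)).comp (ext0 K)))
  have hf : ∀ y (j : J), f y j =
      rep cs h v⁻¹ (rep cs h (cs.wordProd K.toList) (ext0 K y) - ext0 K y) j := fun y j => rfl
  have hinj : Function.Injective f := by
    rw [← LinearMap.ker_eq_bot, LinearMap.ker_eq_bot']
    intro y hy
    set x := ext0 K y with hx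
    -- `v⁻¹ (c x - x)` is supported on `J`
    have h1 : rep cs h v⁻¹ (rep cs h (cs.wordProd K.toList) x - x) =
        rep cs h (v⁻¹ * cs.wordProd K.toList * v) (rep cs h v⁻¹ x) - rep cs h v⁻¹ x := by
      rw [map_sub, ← rep_mul_apply, ← rep_mul_apply]
      congr 3
      group
    have h2 : rep cs h v⁻¹ (rep cs h (cs.wordProd K.toList) x - x) = 0 := by
      funext j
      by_cases hj : j ∈ J
      · have h3 := congrFun hy ⟨j, hj⟩
        rw [hf] at h3
        exact h3
      · rw [h1, Pi.sub_apply, coord (h := h) hv _ (by simpa using hj), sub_self]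
        rfl
    have h3 : rep cs h (cs.wordProd K.toList) x - x = 0 := by
      have h4 := congrArg (rep cs h v) h2
      rwa [rep_apply_inv, map_zero] at h4
    have h4 := pairing_eq_zero (cs := cs) (h := h) K.nodup_toList (sub_eq_zero.1 h3)
    have h5 : x = 0 := eq_zero_of_pairing cs h (K := (K : Set I)) (fun k hk => ext0_apply_notMem y (by simpa using hk))
      fun k hk => h4 k (Finset.mem_toList.2 (by simpa using hk))
    funext k
    have h6 := congrFun h5 k
    rw [hx, ext0_apply_mem y k.2] at h6
    exact h6
  have h1 := card_le_of_injective ℤ f hinj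
  rwa [Fintype.card_coe, Fintype.card_coe] at h1

/-! ### the functions `∑_{|J| = j} 1_{W_J}^W` -/

include h in
theorem fixN_cox_eq_zero [Finite W] {J K : Finset I} (hJK : J.card < K.card) :
    fixN (WJ cs (J : Set I)) (cs.wordProd K.toList) = 0 :=
  fixN_eq_zero fun _ hv => absurd (card_le (h := h) hv) (not_le.2 hJK)

theorem fixN_cox_pos [Finite W] (K : Finset I) : 0 < fixN (WJ cs (K : Set I)) (cs.wordProd K.toList) :=
  fixN_pos_of_mem (wordProd_mem fun i hi => by simpa using hi)

include h in
/-- **Independence on the Weyl group.** -/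
theorem eq_zero_of_relation [Finite W] (b : ℕ → ℂ)
    (hb : ∀ w : W, ∑ J : Finset I, b J.card * (fixN (WJ cs (J : Set I)) w : ℂ) = 0) :
    ∀ k ≤ Fintype.card I, b k = 0 := by
  classical
  have key : ∀ m k, k + m = Fintype.card I → b k = 0 := by
    intro m
    induction m using Nat.strong_induction_on with
    | _ m ih =>
    intro k hk
    obtain ⟨K, -, hK⟩ := Finset.exists_subset_card_eq (s := (Finset.univ : Finset I)) (n := k)
      (by rw [Finset.card_univ]; omega)
    have h1 := hb (cs.wordProd K.toList)
    have h2 : ∀ J : Finset I, b J.card * (fixN (WJ cs (J : Set I)) (cs.wordProd K.toList) : ℂ) =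
        b k * (if J.card = k then (fixN (WJ cs (J : Set I)) (cs.wordProd K.toList) : ℂ) else 0) := by
      intro J
      rcases lt_trichotomy J.card k with h3 | h3 | h3
      · rw [fixN_cox_eq_zero (h := h) (by omega), if_neg h3.ne]
        simp
      · rw [if_pos h3, h3]
      · have h4 : J.card ≤ Fintype.card I := by
          rw [← Finset.card_univ]
          exact Finset.card_le_card (Finset.subset_univ J)
        rw [if_neg h3.ne', ih (Fintype.card I - J.card) (by omega) J.card (by omega)]
        simp
    rw [Finset.sum_congr rfl fun J _ => h2 J, ← Finset.mul_sum, mul_eq_zero] at h1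
    refine h1.resolve_right ?_
    have h3 : (∑ J : Finset I, if J.card = k then (fixN (WJ cs (J : Set I)) (cs.wordProd K.toList) : ℂ) else 0) =
        ((∑ J : Finset I, if J.card = k then fixN (WJ cs (J : Set I)) (cs.wordProd K.toList) else 0 : ℕ) : ℂ) := by
      push_cast
      rfl
    rw [h3, Nat.cast_eq_zero]
    refine (lt_of_lt_of_le (fixN_cox_pos (cs := cs) K) ?_).ne'
    refine le_trans (le_of_eq ?_) (Finset.single_le_sum (f := fun J : Finset I =>
      if J.card = k then fixN (WJ cs (J : Set I)) (cs.wordProd K.toList) else 0) (fun _ _ => Nat.zero_le _)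
      (Finset.mem_univ K))
    rw [if_pos hK]
  exact fun k hk => key (Fintype.card I - k) k (by omega)

end Cfsg.Agent.H211.Dl
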