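import Mathlib
import Cfsg.Agent.H211.Dl.Weyl

/-!
# Double cosets of parabolic subgroups (for S4769)

* `cell_mul` : `P_J (cell of w) ⊆ ⋃_{u ∈ W_J} (cell of u w)`;
* `orb_PJ` : `|P_J \ Y / P_K| = |W_J \ W / W_K|`;
* `relation` : the linear relations between the permutation characters on the cosets of the `P_J` hold for the
  permutation characters on the cosets of the `W_J`.
-/

set_option autoImplicit false
set_option linter.unusedSectionVars false
set_option linter.style.haveILetI false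

namespace Cfsg.Agent.H211.Dl

open CoxeterSystem Cfsg.Agent.ChevalleyStructure.CoxeterGeom Cfsg.Agent.Tits.Roots Cfsg.Agent.Tits.Core
  Cfsg.Agent.Tits.Exchange Cfsg.Agent.Nodes.Reps Cfsg.Agent.Nodes.BNOf Cfsg.Agent.Nodes.StabComb
  Cfsg.Agent.Nodes.Bruhat Cfsg.Agent.Nodes.OppDec Cfsg.Agent.Nodes.LeviDec

variable {I W Y : Type*} [Fintype I] [DecidableEq I] [Group W] [Group Y] {M : CoxeterMatrix I}
  {cs : CoxeterSystem M W} {A : I → I → ℤ} {h : IsCartan M A} {p : ℕ} {T : Subgroup Y} {n : I → Y}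
  {X : (I → ℤ) → Subgroup Y}

section

variable (R : RGD cs h p T n X)

include R

theorem cell_mul {J : Set I} {w : W} {g : Y} (hg : Cell R.nsys cs h X w g) {v : W} (hv : v ∈ WJ cs J) {a : Y}
    (ha : Cell R.nsys cs h X v a) : ∃ u ∈ WJ cs J, Cell R.nsys cs h X (u * w) (a * g) := by
  obtain ⟨ω, hω, rfl⟩ := exists_word_of_mem_WJ cs hv
  clear hv
  induction ω generalizing a with
  | nil =>
    rw [wordProd_nil] at ha
    exact ⟨1, one_mem _, by rw [one_mul]; exact hg.mul_left ha.mem_of_one⟩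
  | cons i ω ih =>
    have hω' : ∀ j ∈ ω, j ∈ J := fun j hj => hω j (by simp [hj])
    rw [wordProd_cons] at ha
    obtain ⟨b₁, hb₁, k, hk, b₂, hb₂, rfl⟩ := ha
    have h1 : Rp cs R.nsys (cs.wordProd ω) ((n i)⁻¹ * k) := by
      have := (rp_simple cs R.nsys i).inv.mul hk
      rwa [inv_mul_cancel_left] at this
    obtain ⟨u, hu, hc⟩ := ih hω' ((cell_of_rp h1).mul_right hb₂)
    have h2 : Cell R.nsys cs h X (cs.simple i) (b₁ * n i) := (cell_of_rp (rp_simple cs R.nsys i)).mul_left hb₁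
    have e : b₁ * k * b₂ * g = b₁ * n i * ((n i)⁻¹ * k * b₂ * g) := by group
    rw [e]
    rcases Cell.simple_mul R h2 hc with h3 | ⟨-, h3⟩
    · exact ⟨cs.simple i * u, mul_mem (simple_mem_WJ cs (hω i (by simp))) hu, by rwa [mul_assoc]⟩
    · exact ⟨u, hu, h3⟩

theorem cell_mul' {J : Set I} {w : W} {g : Y} (hg : Cell R.nsys cs h X w g) {v : W} (hv : v ∈ WJ cs J) {a : Y}
    (ha : Cell R.nsys cs h X v a) : ∃ u ∈ WJ cs J, Cell R.nsys cs h X (w * u) (g * a) := by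
  obtain ⟨u, hu, hc⟩ := cell_mul R hg.inv (inv_mem hv) ha.inv
  refine ⟨u⁻¹, inv_mem hu, ?_⟩
  have := hc.inv
  rwa [mul_inv_rev, mul_inv_rev, inv_inv, inv_inv, inv_inv] at this

/-- **Double cosets.** -/
theorem orb_PJ [Finite W] (hG : GG cs h T X = ⊤) (J K : Set I) :
    orb (PJ cs h T X J) (PJ cs h T X K) = orb (WJ cs J) (WJ cs K) := by
  choose k hk using fun w : W => exists_rp cs R.nsys w
  refine orb_eq k (fun w : W => w) ?_ ?_ ?_
  · intro g
    obtain ⟨w, b₁, hb₁, k', hk', b₂, hb₂, e⟩ := (mem_GG R).1 (show g ∈ GG cs h T X by rw [hG]; exact Subgroup.mem_top _)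
    refine ⟨w, b₁, B_le_PJ hb₁, (k w)⁻¹ * k' * b₂, mul_mem (B_le_PJ (RGD.T_le_B ((hk w).unique hk'))) (B_le_PJ hb₂), ?_⟩
    rw [e]
    group
  · intro g
    exact ⟨g, 1, one_mem _, 1, one_mem _, by group⟩
  · intro v w
    constructor
    · rintro ⟨a, ha, b, hb, e⟩
      obtain ⟨u, hu, hcu⟩ := (mem_PJ_iff_cell R).1 ha
      obtain ⟨x, hx, hcx⟩ := (mem_PJ_iff_cell R).1 hb
      obtain ⟨u', hu', h1⟩ := cell_mul R (cell_of_rp (X := X) (h := h) (hk v)) hu hcu
      obtain ⟨x', hx', h2⟩ := cell_mul' R h1 hx hcx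
      rw [← e] at h2
      exact ⟨u', hu', x', hx', Cell.unique R (cell_of_rp (hk w)) h2⟩
    · rintro ⟨a, ha, b, hb, e⟩
      obtain ⟨ka, hka⟩ := exists_rp cs R.nsys a
      obtain ⟨kb, hkb⟩ := exists_rp cs R.nsys b
      have h1 := (hka.mul (hk v)).mul hkb
      rw [← e] at h1
      refine ⟨ka, LJ_le_PJ (rp_mem_LJ R ha hka), kb * ((ka * k v * kb)⁻¹ * k w),
        mul_mem (LJ_le_PJ (rp_mem_LJ R hb hkb)) (B_le_PJ (RGD.T_le_B (h1.unique (hk w)))), ?_⟩
      group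

/-- **Relations on `Y` give relations on `W`.** -/
theorem relation [Finite W] [Finite Y] (hG : GG cs h T X = ⊤) (a : Finset I → ℂ)
    (ha : ∀ g : Y, ∑ J : Finset I, a J * (fixN (PJ cs h T X (J : Set I)) g : ℂ) = 0) (w : W) :
    ∑ J : Finset I, a J * (fixN (WJ cs (J : Set I)) w : ℂ) = 0 :=
  relation_iff (fun J : Finset I => PJ cs h T X (J : Set I)) (fun J : Finset I => WJ cs (J : Set I))
    (fun J K => orb_PJ R hG _ _) a ha w

end

end Cfsg.Agent.H211.Dl
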